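import Mathlib
import Cfsg.Agent.Lib.Core.Conj
import Cfsg.Agent.Lib.Core.Factor
import Cfsg.Agent.Lib.PGroup.Basic

/-!
# Factorizations `G = HK` of a group into two subgroups.
-/

set_option autoImplicit false

namespace Cfsg.Agent.Lib.Core

open Subgroup
open scoped Pointwise

variable {G : Type*} [Group G]

theorem mul_symm_of_mul {H K : Subgroup G} (h : ∀ g : G, ∃ x ∈ H, ∃ y ∈ K, g = x * y) :
    ∀ g : G, ∃ y ∈ K, ∃ x ∈ H, g = y * x := by
  intro g
  obtain ⟨x, hx, y, hy, hxy⟩ := h g⁻¹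
  refine ⟨y⁻¹, K.inv_mem hy, x⁻¹, H.inv_mem hx, ?_⟩
  rw [← mul_inv_rev, ← hxy, inv_inv]

theorem relIndex_eq_index_of_mul [Finite G] {H K : Subgroup G} (h : ∀ g : G, ∃ x ∈ H, ∃ y ∈ K, g = x * y) :
    H.relIndex K = H.index := by
  classical
  let a : G ⧸ H := ((1 : G) : G ⧸ H)
  have hstab : MulAction.stabilizer K a = H.subgroupOf K := by
    ext y
    rw [MulAction.mem_stabilizer_iff, Subgroup.mem_subgroupOf]
    have h1 : y • a = (((y : G) * 1 : G) : G ⧸ H) := rfl
    rw [h1, mul_one]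
    show ((y : G) : G ⧸ H) = ((1 : G) : G ⧸ H) ↔ _
    rw [eq_comm, QuotientGroup.eq]
    simp
  have horb : MulAction.orbit K a = Set.univ := by
    apply Set.eq_univ_of_forall
    intro q
    obtain ⟨g, rfl⟩ := QuotientGroup.mk_surjective q
    obtain ⟨x, hx, y, hy, hxy⟩ := h g⁻¹
    refine ⟨⟨y⁻¹, K.inv_mem hy⟩, ?_⟩
    show (((y⁻¹ : G) * 1 : G) : G ⧸ H) = _
    rw [mul_one, QuotientGroup.eq]
    have : y⁻¹⁻¹ * g = x⁻¹ := by
      have h2 : g = y⁻¹ * x⁻¹ := by
        rw [← mul_inv_rev, ← hxy, inv_inv]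
      rw [h2]
      group
    rw [this]
    exact H.inv_mem hx
  have h1 := MulAction.index_stabilizer K a
  rw [hstab, horb, Set.ncard_univ] at h1
  exact h1

/-- `|H| |K| = |G| |H ∩ K|` when `G = HK`. -/
theorem card_mul_card_of_mul [Finite G] {H K : Subgroup G} (h : ∀ g : G, ∃ x ∈ H, ∃ y ∈ K, g = x * y) :
    Nat.card H * Nat.card K = Nat.card G * Nat.card (H ⊓ K : Subgroup G) := by
  have h1 := relIndex_eq_index_of_mul h
  have h2 := Cfsg.Agent.Lib.PGroup.card_inf_mul_relIndex H K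
  have h3 := H.card_mul_index
  rw [h1] at h2
  rw [← h2, ← h3]
  ring

/-- Simultaneous conjugation of the factors of a factorization. -/
theorem exists_conj_of_mul {H K : Subgroup G} (hHK : ∀ g : G, ∃ h ∈ H, ∃ k ∈ K, g = h * k) (x y : G) :
    ∃ g : G, MulAut.conj x • H = MulAut.conj g • H ∧ MulAut.conj y • K = MulAut.conj g • K := by
  obtain ⟨h, hh, k, hk, hhk⟩ := hHK (x⁻¹ * y)
  refine ⟨x * h, ?_, ?_⟩
  · rw [map_mul, mul_smul, conj_smul_eq_self_of_mem hh]
  · have h1 : x * h = y * k⁻¹ := by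
      have h2 : y = x * (h * k) := by
        rw [← hhk]
        group
      rw [h2]
      group
    rw [h1, map_mul, mul_smul, conj_smul_eq_self_of_mem (K.inv_mem hk)]

/-- Conjugates of the factors of a factorization are again factors. -/
theorem mul_of_conj {H K : Subgroup G} (hHK : ∀ g : G, ∃ h ∈ H, ∃ k ∈ K, g = h * k) (x y : G) :
    ∀ g : G, ∃ a ∈ MulAut.conj x • H, ∃ b ∈ MulAut.conj y • K, g = a * b := by
  obtain ⟨u, hu1, hu2⟩ := exists_conj_of_mul hHK x y
  intro g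
  obtain ⟨h, hh, k, hk, hhk⟩ := hHK (u⁻¹ * g * u)
  refine ⟨u * h * u⁻¹, ?_, u * k * u⁻¹, ?_, ?_⟩
  · rw [hu1]
    exact conj_mem_conj_smul hh
  · rw [hu2]
    exact conj_mem_conj_smul hk
  · have : g = u * (u⁻¹ * g * u) * u⁻¹ := by group
    rw [this, hhk]
    group

/-- If `G = HK`, `A ⊴ H`, `B ⊴ K` then the normalizer of `A ⊔ B` factorizes. -/
theorem normalizer_sup_factor [Finite G] {H K A B : Subgroup G} (hHK : ∀ g : G, ∃ h ∈ H, ∃ k ∈ K, g = h * k) (hA : A ≤ H)
    (hAn : (A.subgroupOf H).Normal) (hB : B ≤ K) (hBn : (B.subgroupOf K).Normal) :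
    ∀ g ∈ Subgroup.normalizer ((A ⊔ B : Subgroup G) : Set G), ∃ h ∈ Subgroup.normalizer ((A ⊔ B : Subgroup G) : Set G) ⊓ H,
      ∃ k ∈ Subgroup.normalizer ((A ⊔ B : Subgroup G) : Set G) ⊓ K, g = h * k := by
  intro g hg
  set J := A ⊔ B with hJ
  obtain ⟨h, hh, k, hk, rfl⟩ := hHK g
  have hJfin : ∀ (u : G), MulAut.conj u • J = (MulAut.conj u • A) ⊔ (MulAut.conj u • B) := by
    intro u
    rw [hJ, Subgroup.smul_sup]
  have h1 : MulAut.conj (h * k) • J = J := conj_smul_eq_self_of_mem_normalizer hg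
  have h2 : MulAut.conj k • J = MulAut.conj h⁻¹ • J := by
    have : MulAut.conj h⁻¹ • (MulAut.conj (h * k) • J) = MulAut.conj h⁻¹ • J := by rw [h1]
    rw [conj_smul_conj_smul] at this
    rwa [show h⁻¹ * (h * k) = k by group] at this
  have hAn : MulAut.conj h⁻¹ • A = A := by
    have hm : h⁻¹ ∈ H := H.inv_mem hh
    have h3 : (A.subgroupOf H).Normal := hAn
    apply Subgroup.eq_of_le_of_card_ge
    · intro x hx
      rw [mem_conj_smul_iff] at hx
      have hxH : (h⁻¹)⁻¹ * x * h⁻¹ ∈ A := hx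
      have h4 := h3.conj_mem ⟨_, hA hxH⟩ (by simpa [Subgroup.mem_subgroupOf] using hxH) ⟨h⁻¹, hm⟩
      simp only [Subgroup.mem_subgroupOf, Subgroup.coe_mul, InvMemClass.coe_inv, inv_inv] at h4
      have e : h⁻¹ * (h * x * h⁻¹) * h = x := by group
      rwa [e] at h4
    · rw [card_conj_smul]
  have hBn : MulAut.conj k • B = B := by
    have h3 : (B.subgroupOf K).Normal := hBn
    apply Subgroup.eq_of_le_of_card_ge
    · intro x hx
      rw [mem_conj_smul_iff] at hx
      have h4 := h3.conj_mem ⟨_, hB hx⟩ (by simpa [Subgroup.mem_subgroupOf] using hx) ⟨k, hk⟩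
      simp only [Subgroup.mem_subgroupOf, Subgroup.coe_mul, InvMemClass.coe_inv] at h4
      have e : k * (k⁻¹ * x * k) * k⁻¹ = x := by group
      rwa [e] at h4
    · rw [card_conj_smul]
  -- `k • J` contains both `A` and `B`
  have hle : J ≤ MulAut.conj k • J := by
    rw [hJ, sup_le_iff]
    constructor
    · have h5 : A ≤ MulAut.conj h⁻¹ • J := by
        rw [hJfin, hAn]
        exact le_sup_left
      rwa [← h2] at h5
    · rw [hJfin, hBn]
      exact le_sup_right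
  have hkJ : MulAut.conj k • J = J := (Subgroup.eq_of_le_of_card_ge hle (by
    rw [card_conj_smul])).symm
  have hhJ : MulAut.conj h⁻¹ • J = J := by rw [← h2, hkJ]
  refine ⟨h, ⟨?_, hh⟩, k, ⟨?_, hk⟩, rfl⟩
  · have := mem_normalizer_of_conj_smul_eq hhJ
    simpa using (normalizer ((J : Subgroup G) : Set G)).inv_mem this
  · exact mem_normalizer_of_conj_smul_eq hkJ


end Cfsg.Agent.Lib.Core
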