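import Mathlib
import Cfsg.Agent.Lib.Core.MinNormal2
import Cfsg.Agent.Lib.Core.Product
import Cfsg.Agent.Lib.Hall.Frobenius3
import Cfsg.Prelude.Def_Transfer

/-!
# Core-free maximal subgroups.
-/

set_option autoImplicit false

namespace Cfsg.Agent.Lib.Core

open Cfsg Subgroup
open scoped Pointwise commutatorElement

variable {G : Type*} [Group G]

/-- A nontrivial normal subgroup supplements a core-free maximal subgroup. -/
theorem sup_eq_top_of_coreFree {U : Subgroup G} (hU : IsCoatom U) (hcore : U.normalCore = ⊥)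
    {N : Subgroup G} [hN : N.Normal] (hN1 : N ≠ ⊥) : N ⊔ U = ⊤ := by
  have h1 : ¬ N ≤ U := fun h => hN1 (le_bot_iff.mp (hcore ▸ Subgroup.normal_le_normalCore.mpr h))
  rw [sup_comm]
  exact hU.2 _ (lt_of_le_of_ne le_sup_left (fun h => h1 (by rw [h]; exact le_sup_right)))

/-- A subgroup normalized by a supplement pair is normal. -/
theorem normal_of_le_normalizer_of_sup {A B D : Subgroup G} (h : A ⊔ B = ⊤)
    (hA : A ≤ normalizer (D : Set G)) (hB : B ≤ normalizer (D : Set G)) : D.Normal := by
  rw [← Subgroup.normalizer_eq_top_iff, eq_top_iff, ← h]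
  exact sup_le hA hB

/-- Elements of a centralizer normalize. -/
theorem le_normalizer_of_le_centralizer {A D : Subgroup G} (h : D ≤ centralizer (A : Set G)) :
    A ≤ normalizer (D : Set G) := by
  intro a ha
  rw [Subgroup.mem_normalizer_iff]
  intro x
  constructor
  · intro hx
    have h1 := Subgroup.mem_centralizer_iff.mp (h hx) a ha
    rw [h1]
    simpa using hx
  · intro hx
    have h1 := Subgroup.mem_centralizer_iff.mp (h hx) a ha
    have h2 : a * (a * x * a⁻¹) = (a * x * a⁻¹) * a := h1
    have h3 : a * x = x * a := by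
      have h4 : a * (a * x * a⁻¹) * a⁻¹ = a * x * a⁻¹ := by
        rw [h2]
        group
      have h5 : a⁻¹ * (a * (a * x * a⁻¹) * a⁻¹) * a = a * x * a⁻¹ := by group
      rw [h4] at h5
      have h6 : a⁻¹ * (a * x * a⁻¹) * a = x := by group
      rw [h6] at h5
      calc a * x = a * x * a⁻¹ * a := by group
        _ = x * a := by rw [← h5]
    have : a * x * a⁻¹ = x := by
      rw [h3]
      group
    rwa [this] at hx

/-- The statement of the centralizer lemma for a core-free maximal subgroup. -/
theorem centralizer_inf_coreFree {U : Subgroup G} (hU : IsCoatom U) (hcore : U.normalCore = ⊥)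
    (N : Subgroup G) [hN : N.Normal] (hN1 : N ≠ ⊥) : centralizer (N : Set G) ⊓ U = ⊥ := by
  have hsup := sup_eq_top_of_coreFree hU hcore hN1
  have hCn : (centralizer (N : Set G)).Normal := inferInstance
  have hDn : (centralizer (N : Set G) ⊓ U).Normal := by
    apply normal_of_le_normalizer_of_sup hsup
    · apply le_normalizer_of_le_centralizer
      intro x hx
      rw [Subgroup.mem_centralizer_iff]
      intro n hn
      exact (Subgroup.mem_centralizer_iff.mp hx.1 n hn)
    · intro u hu
      rw [Subgroup.mem_normalizer_iff]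
      intro x
      constructor
      · rintro ⟨h1, h2⟩
        exact ⟨hCn.conj_mem x h1 u, U.mul_mem (U.mul_mem hu h2) (U.inv_mem hu)⟩
      · rintro ⟨h1, h2⟩
        refine ⟨?_, ?_⟩
        · have := hCn.conj_mem _ h1 u⁻¹
          have e : u⁻¹ * (u * x * u⁻¹) * u⁻¹⁻¹ = x := by group
          rwa [e] at this
        · have := U.mul_mem (U.mul_mem (U.inv_mem hu) h2) hu
          have e : u⁻¹ * (u * x * u⁻¹) * u = x := by group
          rwa [e] at this
  have := Subgroup.normal_le_normalCore.mpr (inf_le_right : centralizer (N : Set G) ⊓ U ≤ U)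
  rw [hcore] at this
  exact le_bot_iff.mp this

/-- Dedekind type minimality: in a normal `C` with `C ⊓ U = ⊥`, any nontrivial normal `K ≤ C` equals `C`. -/
theorem eq_of_normal_le_of_inf_eq_bot {U : Subgroup G} (hU : IsCoatom U) (hcore : U.normalCore = ⊥)
    {C K : Subgroup G} (hC : C ⊓ U = ⊥) [hK : K.Normal] (hKC : K ≤ C) (hK1 : K ≠ ⊥) : K = C := by
  apply le_antisymm hKC
  intro c hc
  have hsup := sup_eq_top_of_coreFree hU hcore hK1
  have : c ∈ K ⊔ U := by
    rw [hsup]
    exact Subgroup.mem_top c
  obtain ⟨k, hk, u, hu, rfl⟩ := exists_mul_of_mem_sup_normal_left this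
  have hu1 : u ∈ C ⊓ U := by
    refine ⟨?_, hu⟩
    have := C.mul_mem (C.inv_mem (hKC hk)) hc
    rwa [inv_mul_cancel_left] at this
  rw [hC, Subgroup.mem_bot] at hu1
  rw [hu1, mul_one]
  exact hk

/-- If `X` and `Y` complement the normal subgroup `N` in the same subgroup, they are isomorphic. -/
theorem nonempty_equiv_of_complements {N X Y : Subgroup G} [hN : N.Normal] (hX : X ⊓ N = ⊥) (hY : Y ⊓ N = ⊥)
    (hXY : X ⊔ N = Y ⊔ N) : Nonempty (X ≃* Y) := by
  let π := QuotientGroup.mk' N
  let f : X →* G ⧸ N := π.comp X.subtype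
  let g : Y →* G ⧸ N := π.comp Y.subtype
  have hf : Function.Injective f := by
    rw [injective_iff_map_eq_one]
    intro x hx
    have h1 : (x : G) ∈ N := (QuotientGroup.eq_one_iff _).mp hx
    have h2 : (x : G) ∈ X ⊓ N := ⟨x.2, h1⟩
    rw [hX, Subgroup.mem_bot] at h2
    exact Subtype.ext h2
  have hg : Function.Injective g := by
    rw [injective_iff_map_eq_one]
    intro x hx
    have h1 : (x : G) ∈ N := (QuotientGroup.eq_one_iff _).mp hx
    have h2 : (x : G) ∈ Y ⊓ N := ⟨x.2, h1⟩
    rw [hY, Subgroup.mem_bot] at h2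
    exact Subtype.ext h2
  have hr : f.range = g.range := by
    have h1 : f.range = X.map π := by
      rw [MonoidHom.range_comp, Subgroup.range_subtype]
    have h2 : g.range = Y.map π := by
      rw [MonoidHom.range_comp, Subgroup.range_subtype]
    rw [h1, h2]
    have hker : N ≤ π.ker := by
      rw [QuotientGroup.ker_mk']
    have h3 : N.map π = ⊥ := (Subgroup.map_eq_bot_iff _).mpr hker
    have h4 : X.map π = (X ⊔ N).map π := by
      rw [Subgroup.map_sup, h3, sup_bot_eq]
    have h5 : Y.map π = (Y ⊔ N).map π := by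
      rw [Subgroup.map_sup, h3, sup_bot_eq]
    rw [h4, h5, hXY]
  exact ⟨(MonoidHom.ofInjective hf).trans ((MulEquiv.subgroupCongr hr).trans (MonoidHom.ofInjective hg).symm)⟩

end Cfsg.Agent.Lib.Core
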