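import Mathlib
import Cfsg.Agent.Lib.Core.Product
import Cfsg.Agent.Lib.Core.CoreFree
import Cfsg.Agent.Lib.Hall.Frobenius3
import Cfsg.Agent.Lib.Hall.CoprimeSylow
import Cfsg.Agent.Lib.Super.Chain
import Cfsg.Agent.Lib.Core.Subnormal

/-!
# Brodkey's theorem; a solvability criterion for factorizations; Matsuyama's lemma.
-/

set_option autoImplicit false

namespace Cfsg.Agent.Lib.Core

open Cfsg Subgroup
open scoped Pointwise commutatorElement IsMulCommutative

universe u

section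

variable {G : Type*} [Group G] [Finite G]

/-- A `p`-subgroup has a conjugate inside any subgroup of index prime to `p`. -/
theorem exists_conj_le_of_not_dvd_index {p : ℕ} [Fact p.Prime] {A X : Subgroup G} (hA : IsPGroup p A)
    (hX : ¬ p ∣ X.index) : ∃ g : G, MulAut.conj g • A ≤ X := by
  classical
  obtain ⟨q, hq⟩ := hA.nonempty_fixed_point_of_prime_not_dvd_card (G ⧸ X) hX
  obtain ⟨g, rfl⟩ := QuotientGroup.mk_surjective q
  refine ⟨g⁻¹, ?_⟩
  intro x hx
  rw [mem_conj_smul_iff, inv_inv] at hx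
  have h1 : (g * x * g⁻¹) • ((g : G) : G ⧸ X) = ((g : G) : G ⧸ X) := hq ⟨g * x * g⁻¹, hx⟩
  rw [Cfsg.Agent.Lib.Hall.smul_quotient_eq_iff, mem_conj_smul_iff] at h1
  have e : g⁻¹ * (g * x * g⁻¹) * g = x := by group
  rwa [e] at h1

/-- **Brodkey's theorem.** -/
theorem brodkey (p : ℕ) [Fact p.Prime] (S : Sylow p G) (hS : IsMulCommutative S) (hOp : pCore p G = ⊥) :
    ∃ g : G, (S : Subgroup G) ⊓ MulAut.conj g • (S : Subgroup G) = ⊥ := by
  classical
  -- minimal intersection
  obtain ⟨⟨A, B⟩, hmin⟩ := Finite.exists_min (fun X : Sylow p G × Sylow p G =>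
    Nat.card ((X.1 : Subgroup G) ⊓ (X.2 : Subgroup G) : Subgroup G))
  have hcomm : ∀ R : Sylow p G, ∀ x ∈ (R : Subgroup G), ∀ y ∈ (R : Subgroup G), x * y = y * x := by
    intro R x hx y hy
    obtain ⟨g, rfl⟩ := MulAction.exists_smul_eq G S R
    rw [Sylow.coe_subgroup_smul, mem_conj_smul_iff] at hx hy
    have := mul_comm' (⟨_, hx⟩ : (S : Subgroup G)) ⟨_, hy⟩
    have h2 : (g⁻¹ * x * g) * (g⁻¹ * y * g) = (g⁻¹ * y * g) * (g⁻¹ * x * g) := congrArg Subtype.val this
    have h3 : g * ((g⁻¹ * x * g) * (g⁻¹ * y * g)) * g⁻¹ = x * y := by group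
    have h4 : g * ((g⁻¹ * y * g) * (g⁻¹ * x * g)) * g⁻¹ = y * x := by group
    rw [← h3, ← h4, h2]
  set D : Subgroup G := (A : Subgroup G) ⊓ (B : Subgroup G) with hD
  let N := normalizer (D : Set G)
  have hRN : ∀ R : Sylow p G, D ≤ R → (R : Subgroup G) ≤ N := by
    intro R hDR
    apply le_normalizer_of_le_centralizer
    intro d hd
    rw [Subgroup.mem_centralizer_iff]
    intro r hr
    exact hcomm R r hr d (hDR hd)
  have hAN : (A : Subgroup G) ≤ N := hRN A inf_le_left
  have hBN : (B : Subgroup G) ≤ N := hRN B inf_le_right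
  -- every Sylow subgroup contains `D`
  have hall : ∀ R : Sylow p G, D ≤ R := by
    intro R
    by_contra hDR
    have hRne : ¬ (R : Subgroup G) ≤ N := by
      intro hRN'
      apply hDR
      have hp : IsPGroup p ((D ⊔ (R : Subgroup G) : Subgroup G)) := by
        apply IsPGroup.to_sup_of_normal_left'
        · exact (A.isPGroup').to_le inf_le_left
        · exact R.isPGroup'
        · exact hRN'
      have := R.3 hp le_sup_right
      rw [← this]
      exact le_sup_left
    -- a Sylow subgroup of `N` containing `R ⊓ N`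
    have hEp : IsPGroup p ((R : Subgroup G) ⊓ N : Subgroup G) := R.isPGroup'.to_le inf_le_left
    have hE₀ : IsPGroup p (((R : Subgroup G) ⊓ N).subgroupOf N : Subgroup N) := hEp.comap_subtype
    obtain ⟨Q, hQ⟩ := hE₀.exists_le_sylow
    let A₀ : Sylow p N := A.subtype hAN
    obtain ⟨n, hn⟩ := MulAction.exists_smul_eq N A₀ Q
    let P₁ : Sylow p G := (n : G) • A
    let Q₁ : Sylow p G := (n : G) • B
    have hP₁ : (P₁ : Subgroup G) = MulAut.conj (n : G) • (A : Subgroup G) := Sylow.coe_subgroup_smul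
    have hQ₁ : (Q₁ : Subgroup G) = MulAut.conj (n : G) • (B : Subgroup G) := Sylow.coe_subgroup_smul
    have hPQ : (P₁ : Subgroup G) ⊓ (Q₁ : Subgroup G) = D := by
      rw [hP₁, hQ₁, ← Subgroup.smul_inf, ← hD]
      exact conj_smul_eq_self_of_mem_normalizer n.2
    have hQ₁N : (Q₁ : Subgroup G) ≤ N := by
      rw [hQ₁]
      intro x hx
      rw [mem_conj_smul_iff] at hx
      have := N.mul_mem (N.mul_mem n.2 (hBN hx)) (N.inv_mem n.2)
      have e : (n : G) * ((n : G)⁻¹ * x * n) * (n : G)⁻¹ = x := by group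
      rwa [e] at this
    have hEP : (R : Subgroup G) ⊓ N ≤ P₁ := by
      intro e he
      have h1 : (⟨e, he.2⟩ : N) ∈ (Q : Subgroup N) := hQ (show (⟨e, he.2⟩ : N) ∈ ((R : Subgroup G) ⊓ N).subgroupOf N from he)
      rw [← hn, Sylow.coe_subgroup_smul, mem_conj_smul_iff] at h1
      rw [hP₁, mem_conj_smul_iff]
      exact h1
    have hle : (Q₁ : Subgroup G) ⊓ (R : Subgroup G) ≤ D ⊓ (R : Subgroup G) := by
      intro x hx
      refine ⟨?_, hx.2⟩
      rw [← hPQ]
      exact ⟨hEP ⟨hx.2, hQ₁N hx.1⟩, hx.1⟩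
    have hlt : D ⊓ (R : Subgroup G) < D := by
      refine lt_of_le_of_ne inf_le_left ?_
      intro h
      exact hDR (inf_eq_left.mp h)
    have h1 : Nat.card (D ⊓ (R : Subgroup G) : Subgroup G) < Nat.card D := card_lt_card_of_lt hlt
    have h2 : Nat.card ((Q₁ : Subgroup G) ⊓ (R : Subgroup G) : Subgroup G) ≤ Nat.card (D ⊓ (R : Subgroup G) : Subgroup G) :=
      Subgroup.card_le_of_le hle
    have h3 := hmin (Q₁, R)
    simp only at h3
    omega
  have hDbot : D = ⊥ := by
    rw [eq_bot_iff, ← hOp, pCore_eq_iInf_sylow]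
    exact le_iInf hall
  obtain ⟨x, hx⟩ := MulAction.exists_smul_eq G S A
  obtain ⟨y, hy⟩ := MulAction.exists_smul_eq G S B
  refine ⟨x⁻¹ * y, ?_⟩
  have h1 : MulAut.conj x • (S : Subgroup G) ⊓ MulAut.conj y • (S : Subgroup G) = ⊥ := by
    rw [← Sylow.coe_subgroup_smul, ← Sylow.coe_subgroup_smul, hx, hy, ← hD, hDbot]
  have h2 := congrArg (fun K => MulAut.conj x⁻¹ • K) h1
  simp only [Subgroup.smul_inf, conj_smul_conj_smul, Subgroup.smul_bot, inv_mul_cancel, conj_one_smul] at h2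
  exact h2

end

/-- If `G = H₁H₂ = H₁H₃` with `H₁, H₂, H₃` solvable and coprime indices of `H₂, H₃`, then `G` is solvable. -/
theorem isSolvable_of_two_factorizations : ∀ (n : ℕ) {G : Type u} [Group G] [Finite G], Nat.card G = n →
    ∀ (H₁ H₂ H₃ : Subgroup G), Group.IsSolvable H₁ → Group.IsSolvable H₂ → Group.IsSolvable H₃ →
    (∀ g : G, ∃ x ∈ H₁, ∃ y ∈ H₂, g = x * y) → (∀ g : G, ∃ x ∈ H₁, ∃ y ∈ H₃, g = x * y) →
    H₂.index.Coprime H₃.index → Group.IsSolvable G := by
  intro n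
  induction n using Nat.strong_induction_on with
  | _ n ih =>
    intro G _ _ hn H₁ H₂ H₃ h₁ h₂ h₃ h12 h13 hcop
    by_cases hH₁ : H₁ = ⊥
    · have hH₂ : Function.Surjective H₂.subtype := by
        intro g
        obtain ⟨x, hx, y, hy, rfl⟩ := h12 g
        rw [hH₁, Subgroup.mem_bot] at hx
        exact ⟨⟨y, hy⟩, by simp [hx]⟩
      exact solvable_of_surjective hH₂
    have hnt : Nontrivial H₁ := (Subgroup.nontrivial_iff_ne_bot H₁).mpr hH₁
    obtain ⟨A₁, hA₁n, hA₁ne, -, hmin⟩ := exists_minimal_normal_le (K := (⊤ : Subgroup H₁)) inferInstance top_ne_bot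
    obtain ⟨-, p, hp, hpA⟩ := minimal_normal_elementary A₁ hA₁ne hmin
    haveI : Fact p.Prime := ⟨hp⟩
    have hA₁p : IsPGroup p A₁ := by
      intro x
      refine ⟨1, ?_⟩
      apply Subtype.ext
      simpa using hpA x x.2
    let A : Subgroup G := A₁.map H₁.subtype
    have hAp : IsPGroup p A := hA₁p.map H₁.subtype
    have hAne : A ≠ ⊥ := by
      intro h
      exact hA₁ne ((Subgroup.map_eq_bot_iff_of_injective _ H₁.subtype_injective).mp h)
    have hH₁A : ∀ h ∈ H₁, MulAut.conj h • A = A := by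
      intro h hh
      have h1 : MulAut.conj h • A = (MulAut.conj (⟨h, hh⟩ : H₁) • A₁).map H₁.subtype := by
        rw [map_subtype_conj_smul]
      rw [h1, conj_smul_eq_self_of_normal]
    -- one of `H₂`, `H₃` has index prime to `p`
    obtain ⟨X, hXs, hXf, hXi⟩ : ∃ X : Subgroup G, Group.IsSolvable X ∧
        (∀ g : G, ∃ x ∈ H₁, ∃ y ∈ X, g = x * y) ∧ ¬ p ∣ X.index := by
      by_cases h : p ∣ H₂.index
      · refine ⟨H₃, h₃, h13, fun h' => ?_⟩
        exact hp.one_lt.ne' (Nat.eq_one_of_dvd_coprimes hcop h h')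
      · exact ⟨H₂, h₂, h12, h⟩
    obtain ⟨g₀, hg₀⟩ := exists_conj_le_of_not_dvd_index hAp hXi
    have hXsymm := mul_symm_of_mul hXf
    have hfac : ∀ g : G, ∃ x ∈ X, MulAut.conj g • A = MulAut.conj x • A := by
      intro g
      obtain ⟨x, hx, h, hh, hg⟩ := hXsymm g
      refine ⟨x, hx, ?_⟩
      rw [hg, map_mul, mul_smul, hH₁A h hh]
    have hAX : A ≤ X := by
      obtain ⟨x, hx, h1⟩ := hfac g₀
      rw [h1] at hg₀
      have h2 := conj_smul_le_conj_smul (g := x⁻¹) hg₀
      rwa [conj_inv_smul_conj_smul, conj_smul_eq_self_of_mem (X.inv_mem hx)] at h2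
    have hconj : ∀ g : G, MulAut.conj g • A ≤ X := by
      intro g
      obtain ⟨x, hx, h1⟩ := hfac g
      rw [h1]
      have h2 := conj_smul_le_conj_smul (g := x) hAX
      rwa [conj_smul_eq_self_of_mem hx] at h2
    let K : Subgroup G := Subgroup.normalClosure (A : Set G)
    have hKn : K.Normal := Subgroup.normalClosure_normal
    have hKX : K ≤ X := by
      show Subgroup.closure _ ≤ X
      rw [Subgroup.closure_le]
      intro y hy
      obtain ⟨a, ha, hconj'⟩ := Group.mem_conjugatesOfSet_iff.mp hy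
      obtain ⟨c, rfl⟩ := isConj_iff.mp hconj'
      exact hconj c (conj_mem_conj_smul ha)
    have hKs : Group.IsSolvable K := solvable_of_solvable_injective (f := Subgroup.inclusion hKX)
      (Subgroup.inclusion_injective hKX)
    have hAK : A ≤ K := Subgroup.le_normalClosure
    have hKne : K ≠ ⊥ := fun h => hAne (le_bot_iff.mp (h ▸ hAK))
    let π := QuotientGroup.mk' K
    have hπ : Function.Surjective π := QuotientGroup.mk'_surjective K
    have hKc : 1 < Nat.card K := by
      have hnt2 : Nontrivial K := (Subgroup.nontrivial_iff_ne_bot K).mpr hKne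
      exact Finite.one_lt_card_iff_nontrivial.mpr hnt2
    have hlt : Nat.card (G ⧸ K) < n := by
      rw [← hn]
      exact Cfsg.Agent.Lib.Super.card_quotient_lt K hKc
    have hsol : ∀ H : Subgroup G, Group.IsSolvable H → Group.IsSolvable (H.map π) := by
      intro H hH
      exact solvable_of_surjective (π.subgroupMap_surjective H)
    have hprod : ∀ H H' : Subgroup G, (∀ g : G, ∃ x ∈ H, ∃ y ∈ H', g = x * y) →
        ∀ g : G ⧸ K, ∃ x ∈ H.map π, ∃ y ∈ H'.map π, g = x * y := by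
      intro H H' h g
      obtain ⟨g', rfl⟩ := hπ g
      obtain ⟨x, hx, y, hy, rfl⟩ := h g'
      exact ⟨π x, Subgroup.mem_map_of_mem _ hx, π y, Subgroup.mem_map_of_mem _ hy, map_mul _ _ _⟩
    have hcop' : (H₂.map π).index.Coprime (H₃.map π).index :=
      Nat.Coprime.coprime_dvd_left (Subgroup.index_map_dvd _ hπ)
        (Nat.Coprime.coprime_dvd_right (Subgroup.index_map_dvd _ hπ) hcop)
    exact Cfsg.Agent.Lib.Hall.isSolvable_of_normal K hKs
      (ih _ hlt rfl (H₁.map π) (H₂.map π) (H₃.map π) (hsol _ h₁) (hsol _ h₂) (hsol _ h₃)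
        (hprod _ _ h12) (hprod _ _ h13) hcop')

end Cfsg.Agent.Lib.Core
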